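import Mathlib
import Cfsg.Prelude.Def_BlockRank
import Cfsg.Prelude.Def_Solvable
import Cfsg.Prelude.Def_CaseTheorems

/-!
# S4879: one class of nontrivial `p`-elements, `l(B₀) ≥ p` (helper741): the interface

* `LGoal` : the conclusion of S4879; `Row` : the form of every almost simple row.
* `CycBasis`, `QMat` : the integral matrix of generalized decomposition numbers at `x` (tool T2).
* `CountStmt` (T1), `QStmt` (T2a), `QMatStmt` (T2b), `ProjStmt` (T5) : the abstract tools, as statements.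
-/

set_option autoImplicit false

namespace Cfsg.Agent.H741.Lb

open Cfsg Subgroup

universe u

/-- All nontrivial `p`-elements are conjugate (definitionally `H741.One.OneC`). -/
def OneC (p : ℕ) (G : Type*) [Group G] : Prop :=
  ∀ x y : G, x ≠ 1 → y ≠ 1 → (∃ k : ℕ, orderOf x = p ^ k) → (∃ k : ℕ, orderOf y = p ^ k) → IsConj x y

/-- The conclusion of S4879. -/
def LGoal (p : ℕ) [Fact p.Prime] (M : Ideal AlgInt) (G : Type u) [Group G] (P : Subgroup G) : Prop :=
  p ≤ blockRank p (principalBlock M G) ∨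
    (blockRank p (principalBlock M G) = p - 1 ∧ Nat.card P = p ∧
      (centralizer (P : Set G)).relIndex (normalizer (P : Set G)) = p - 1) ∨
    (p = 11 ∧ blockRank p (principalBlock M G) = 9 ∧ (Nat.card (G ⧸ pPrimeCore p G) = 121 * 120 ∧
      ∃ H : Subgroup (G ⧸ pPrimeCore p G), IsFrobeniusComplement H ∧
        Nonempty (↥H ≃* Matrix.SpecialLinearGroup (Fin 2) (ZMod 5))))

/-- **The form of every almost simple row with `|P| = p²`.** -/
def Row (p : ℕ) (M : Ideal AlgInt) (Q : (S : Type u) → [Group S] → Prop) : Prop :=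
  ∀ (G : Type u) [Group G] [Finite G] (T : Subgroup G) [T.Normal],
    (∀ g : G, (∀ t ∈ T, Commute g t) → g = 1) → (∀ x : G, (∃ k : ℕ, orderOf x = p ^ k) → x ∈ T) →
    OneC p G → (∀ P : Sylow p G, Nat.card P = p ^ 2) → Q ↥T → p ≤ blockRank p (principalBlock M G)

/-- The same, for groups with `|P| = pⁿ`, `n ≥ 3` (only `PSL₂(pⁿ)` and small `p`). -/
def RowN (p n : ℕ) (M : Ideal AlgInt) (Q : (S : Type u) → [Group S] → Prop) : Prop :=
  ∀ (G : Type u) [Group G] [Finite G] (T : Subgroup G) [T.Normal],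
    (∀ g : G, (∀ t ∈ T, Commute g t) → g = 1) → (∀ x : G, (∃ k : ℕ, orderOf x = p ^ k) → x ∈ T) →
    OneC p G → (∀ P : Sylow p G, Nat.card P = p ^ n) → Q ↥T → p ≤ blockRank p (principalBlock M G)

/-- A basic set of the principal block of `C_G(x)` made of signed characters trivial on `x`
(the non-exceptional characters of `B₀(C_G(x)/⟨x⟩)`, a block with a defect group of order `p`). -/
structure CycBasis (p c : ℕ) (M : Ideal AlgInt) {G : Type u} [Group G] (x : G)
    (f : Fin c → centralizer ({x} : Set G) → ℂ) : Prop where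
  /-- the members are signed characters of the principal block, trivial on `x` -/
  mem : ∀ j, ∃ ψ ∈ principalBlock M (centralizer ({x} : Set G)), ∃ δ : ℤ, (δ = 1 ∨ δ = -1) ∧
    (∀ s, f j s = (δ : ℂ) * (ψ : centralizer ({x} : Set G) → ℂ) s) ∧
    ∀ s s' : centralizer ({x} : Set G), (s' : G) = x * s →
      (ψ : centralizer ({x} : Set G) → ℂ) s' = (ψ : centralizer ({x} : Set G) → ℂ) s
  /-- every member of the block is, on `p`-regular elements, `±` a member or `±` the sum of all members -/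
  span : ∀ ψ ∈ principalBlock M (centralizer ({x} : Set G)), ∃ δ : ℤ, (δ = 1 ∨ δ = -1) ∧
    ((∃ j, ∀ s, ¬ p ∣ orderOf s → (ψ : centralizer ({x} : Set G) → ℂ) s = (δ : ℂ) * f j s) ∨
      ∀ s, ¬ p ∣ orderOf s → (ψ : centralizer ({x} : Set G) → ℂ) s = (δ : ℂ) * ∑ j, f j s)
  /-- independence on the `p`-regular elements -/
  indep : ∀ a : Fin c → ℂ, (∀ s : centralizer ({x} : Set G), ¬ p ∣ orderOf s → ∑ j, a j * f j s = 0) → a = 0

/-- The matrix `Q` : integral rows for the members of the principal block, `QᵀQ = p (I + m J)`. -/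
structure QMat (p c m : ℕ) (M : Ideal AlgInt) {G : Type u} [Group G] (x : G)
    (f : Fin c → centralizer ({x} : Set G) → ℂ) (q : IrrCharacter G → Fin c → ℤ) : Prop where
  row : ∀ χ ∈ principalBlock M G, ∀ s : centralizer ({x} : Set G), ¬ p ∣ orderOf s →
    (χ : G → ℂ) (x * (s : G)) = ∑ j, (q χ j : ℂ) * f j s
  indep : ∀ a : Fin c → ℂ, (∀ s : centralizer ({x} : Set G), ¬ p ∣ orderOf s → ∑ j, a j * f j s = 0) → a = 0
  gram : ∀ i j, ∑ᶠ χ ∈ principalBlock M G, q χ i * q χ j = if i = j then (p : ℤ) * (1 + m) else (p : ℤ) * m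

/-- **T1.** `k(B₀) = l(B₀) + l(B₀(C_G(x)))`; together with `H963.OneP.RankEq.rank_eq`. -/
def CountStmt (p : ℕ) [Fact p.Prime] (M : Ideal AlgInt) : Prop :=
  ∀ (G : Type u) [Group G] [Finite G], OneC p G → ∀ P : Sylow p G, Nat.card P = p ^ 2 →
    (∀ x ∈ (P : Subgroup G), x ^ p = 1) → ∀ x : G, x ∈ (P : Subgroup G) → x ≠ 1 → ∀ c : ℕ,
      c = (centralizer ((P : Subgroup G) : Set G)).relIndex
        (normalizer ((P : Subgroup G) : Set G) ⊓ centralizer ({x} : Set G)) →
      Nat.card (principalBlock M G) = blockRank p (principalBlock M G) + c ∧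
        c ∣ p - 1 ∧ 0 < c

/-- **T2a.** Existence of a basis with first member the trivial character. -/
def BasisStmt (p : ℕ) [Fact p.Prime] (M : Ideal AlgInt) : Prop :=
  ∀ (G : Type u) [Group G] [Finite G], ∀ P : Sylow p G, Nat.card P = p ^ 2 →
    (∀ x ∈ (P : Subgroup G), x ^ p = 1) → ∀ x : G, x ∈ (P : Subgroup G) → x ≠ 1 → ∀ (c : ℕ) [NeZero c],
      c = (centralizer ((P : Subgroup G) : Set G)).relIndex
        (normalizer ((P : Subgroup G) : Set G) ⊓ centralizer ({x} : Set G)) → c < p - 1 →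
      ∃ f : Fin c → centralizer ({x} : Set G) → ℂ, CycBasis p c M x f ∧ ∀ s, f 0 s = 1

/-- **T2b.** Every basis gives a matrix `Q`; here `2 c ≥ p - 1` or one class of `p`-elements may be used
(the fusion of the Brauer characters of `B₀(C_G(x))` is trivial: `H634.OneP.normalTriv`, `H417.OneP.stable`). -/
def QMatStmt (p : ℕ) [Fact p.Prime] (M : Ideal AlgInt) : Prop :=
  ∀ (G : Type u) [Group G] [Finite G], OneC p G → ∀ P : Sylow p G, Nat.card P = p ^ 2 →
    (∀ x ∈ (P : Subgroup G), x ^ p = 1) → ∀ x : G, x ∈ (P : Subgroup G) → x ≠ 1 → ∀ c m : ℕ,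
      c = (centralizer ((P : Subgroup G) : Set G)).relIndex
        (normalizer ((P : Subgroup G) : Set G) ⊓ centralizer ({x} : Set G)) → c * m = p - 1 → p - 1 ≤ 2 * c →
      ∀ f : Fin c → centralizer ({x} : Set G) → ℂ, CycBasis p c M x f →
        ∃ q : IrrCharacter G → Fin c → ℤ, QMat p c m M x f q

/-- **T5.** A lower bound of the rank: `Ψᵢ` vanish on the `p`-singular elements, `χⱼ` in the principal block,
the matrix of inner products is nonsingular. -/
def ProjStmt (p : ℕ) [Fact p.Prime] (M : Ideal AlgInt) : Prop :=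
  ∀ (G : Type u) [Group G] [Fintype G], IsPModular p M → ∀ (n : ℕ) (Ψ : Fin n → G → ℂ) (χ : Fin n → IrrCharacter G),
    (∀ i (g : G), p ∣ orderOf g → Ψ i g = 0) → (∀ i, χ i ∈ principalBlock M G) →
    (Matrix.of fun i j => classInner (Ψ i) (χ j : G → ℂ)).det ≠ 0 → n ≤ blockRank p (principalBlock M G)

/-- A tool relation at a `p`-regular element `g`: `a` is orthogonal to the columns of `Q`. -/
def IsRel {G : Type u} [Group G] (M : Ideal AlgInt) {c : ℕ} (q : IrrCharacter G → Fin c → ℤ)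
    (a : IrrCharacter G → ℤ) : Prop :=
  ∀ j, ∑ᶠ χ ∈ principalBlock M G, a χ * q χ j = 0

end Cfsg.Agent.H741.Lb
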